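import Mathlib
import Cfsg.Agent.St.Chev
import Cfsg.Agent.Chev.StCent

/-!
# Root table data for the weak closure argument
-/

set_option autoImplicit false

namespace Cfsg.Agent.St

open Cfsg Cfsg.Lie Cfsg.Agent.Chev

/-- The root `γ` is separated from `β` by a coroot with pairing of absolute value at most `k`. -/
def SepK (D : ChevalleyDatum) (k γ β : ℕ) : Prop :=
  ∃ r < D.nroots, D.pairing r β = 0 ∧ D.pairing r γ ≠ 0 ∧ (D.pairing r γ).natAbs ≤ k

instance instDecidableSepK (D : ChevalleyDatum) (k γ β : ℕ) : Decidable (SepK D k γ β) :=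
  inferInstanceAs (Decidable (∃ r < D.nroots, _))

/-- The commutator of `x_{α_i}` with `x_{s_i β}` exhibits `β` with a unit coefficient. -/
def stepOK (D : ChevalleyDatum) (k β i : ℕ) : Bool :=
  match (D.commTerms (D.simple i) (D.reflectRoot i β)).dropWhile (fun e => e.1 < β) with
  | [] => false
  | e :: post => e.1 == β && (e.2.1 == 1 || e.2.1 == -1) && post.all (fun e' => β < e'.1) &&
      (post.isEmpty || decide (∀ δ < D.nroots, β < δ → SepK D k β δ))

/-- The table conditions for the weak closure argument. -/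
def WCData (D : ChevalleyDatum) (k : ℕ) : Prop :=
  (∀ i < D.rank, ∀ β < D.nroots, D.nroots ≤ 2 * β → β ≠ D.simple i → SepK D k (D.simple i) β) ∧
  ∀ β < D.nroots, D.nroots ≤ 2 * β →
    (∃ i < D.rank, β = D.simple i) ∨ ∃ i < D.rank, 0 < D.cartan i β ∧ stepOK D k β i = true

instance instDecidableWCData (D : ChevalleyDatum) (k : ℕ) : Decidable (WCData D k) :=
  inferInstanceAs (Decidable (_ ∧ _))

theorem wcDataB2 : WCData chevB2 2 := by decide +kernel

theorem wcDataD4 : WCData chevD4 2 := by decide +kernel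

theorem wcDataF4 : WCData chevF4 2 := by decide +kernel

theorem wcDataE6 : WCData chevE6 1 := by decide +kernel

theorem wcDataE7 : WCData chevE7 1 := by decide +kernel

theorem wcDataE8 : WCData chevE8 1 := by decide +kernel

theorem sepG2 : (∀ β ∈ [6, 8, 9, 10, 11], SepK chevG2 2 7 β) ∧ (∀ β ∈ [7, 8, 9], SepK chevG2 2 6 β) ∧
    (∀ β ∈ [9, 10, 11], SepK chevG2 2 8 β) ∧ ∀ β ∈ [10, 11], SepK chevG2 2 9 β := by
  decide +kernel

end Cfsg.Agent.St
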