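import Mathlib
import Cfsg.Agent.St.WCData

/-!
# Weakly closed unipotent subgroups of Chevalley groups

A subgroup `X ≤ U` that is weakly closed in `U` is normalised by `B`, so its normaliser is a
standard parabolic subgroup `P_J` and `X ≤ U_J`.  Commutators with `H` isolate root elements in
`X`, and the commutator formula then gives `U_J ≤ X`.
-/

set_option autoImplicit false

namespace Cfsg.Agent.St

open Cfsg Cfsg.Lie Cfsg.Agent.Chev

variable {F : Type*} [Field F] {G : Type*} [Group G] {D : ChevalleyDatum} {x : ℕ → F → G}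
  (h : IsSt D x) (T : RootTable D) {X : Subgroup G}

theorem zpow_ne_one_of_le {k : ℕ} {c : F} (hc : ∀ n : ℕ, 0 < n → n ≤ k → c ^ n ≠ 1) {m : ℤ}
    (h0 : m ≠ 0) (hm : m.natAbs ≤ k) : c ^ m ≠ 1 := by
  have := hc m.natAbs (Int.natAbs_pos.2 h0) hm
  rcases Int.natAbs_eq m with e | e
  · rwa [e, zpow_natCast]
  · rw [e, zpow_neg, zpow_natCast]
    exact fun e => this (inv_eq_one.1 e)

include h T

theorem root_all [Finite F] (hH : Hs D x ≤ Subgroup.normalizer (X : Set G)) {γ : ℕ}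
    (hγ : γ < 2 * T.N) {t : F} (ht : t ≠ 0) (hx : x γ t ∈ X) (v : F) : x γ v ∈ X := by
  have hγ' : γ < D.nroots := T.nroots_eq ▸ hγ
  have hsq : ∀ a : F, x γ (a * a * t) ∈ X := by
    intro a
    by_cases ha : a = 0
    · rw [ha, zero_mul, zero_mul, h.x_zero hγ']; exact X.one_mem
    · have := conj_mem_of_mem_normalizer (hH (hh_mem_Hs hγ' ha)) hx
      rwa [h.hh_conj T hγ hγ ha, T.pairing_self γ hγ, zpow_two] at this
  by_cases h2 : (2 : F) = 0
  · have := Fintype.ofFinite F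
    have hc : ringChar F = 2 := by
      have : CharP F 2 := CharTwo.of_one_ne_zero_of_two_eq_zero one_ne_zero h2
      exact ringChar.eq F 2
    obtain ⟨a, ha⟩ := FiniteField.isSquare_of_char_two hc (v / t)
    have := hsq a
    rwa [← ha, div_mul_cancel₀ _ ht] at this
  · have := X.mul_mem (hsq ((v / t + 1) / 2)) (X.inv_mem (hsq ((v / t - 1) / 2)))
    rw [← h.x_neg hγ', h.add γ hγ'] at this
    convert this using 2
    field_simp
    ring

/-- Commutators with `H` remove the separated roots. -/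
theorem isolate (hH : Hs D x ≤ Subgroup.normalizer (X : Set G)) {γ : ℕ} (h1 : T.N ≤ γ)
    (hγ : γ < 2 * T.N) {R : Set ℕ} (hR : ∀ r ∈ R, T.N ≤ r ∧ r < 2 * T.N)
    (hcl : ∀ r ∈ insert γ R, ∀ s ∈ R, ∀ k < 2 * T.N, ∀ i j : ℕ, 0 < i → 0 < j →
      T.vec k = i • T.vec r + j • T.vec s → k ∈ R)
    {k : ℕ} {c : F} (hc0 : c ≠ 0) (hc : ∀ n : ℕ, 0 < n → n ≤ k → c ^ n ≠ 1) (M : ℕ)
    (hsep : ∀ β ∈ R, β < M → SepK D k γ β) {t : F} (ht : t ≠ 0) {z : G} (hz : z ∈ XS x R)
    (hy : x γ t * z ∈ X) :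
    ∃ t' : F, t' ≠ 0 ∧ ∃ z' ∈ XS x {β | β ∈ R ∧ M ≤ β}, x γ t' * z' ∈ X := by
  have hγ' : γ < D.nroots := T.nroots_eq ▸ hγ
  have hcl' : ∀ m : ℕ, ∀ r ∈ insert γ R, ∀ s ∈ {β | β ∈ R ∧ m ≤ β}, ∀ k < 2 * T.N, ∀ i j : ℕ,
      0 < i → 0 < j → T.vec k = i • T.vec r + j • T.vec s → k ∈ {β | β ∈ R ∧ m ≤ β} := by
    intro m r hr s hs k hk i j hi hj e
    refine ⟨hcl r hr s hs.1 k hk i j hi hj e, hs.2.trans (le_of_lt ?_)⟩
    have hr' : T.N ≤ r ∧ r < 2 * T.N := by
      rcases hr with rfl | hr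
      exacts [⟨h1, hγ⟩, hR r hr]
    have p1 := T.val_pos hr'.1 hr'.2
    have p2 := T.val_pos (hR s hs.1).1 (hR s hs.1).2
    rw [← T.val_lt_iff (hR s hs.1).2 hk, e, map_add, map_nsmul, map_nsmul, nsmul_eq_mul,
      nsmul_eq_mul]
    have : (1 : ℤ) ≤ i := by exact_mod_cast hi
    have : (1 : ℤ) ≤ j := by exact_mod_cast hj
    nlinarith
  have hnorm : ∀ m : ℕ, ∀ r ∈ insert γ R, ∀ (u : F), ∀ g ∈ XS x {β | β ∈ R ∧ m ≤ β},
      x r u * g * (x r u)⁻¹ ∈ XS x {β | β ∈ R ∧ m ≤ β} := by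
    intro m r hr u g hg
    have hr' : T.N ≤ r ∧ r < 2 * T.N := by
      rcases hr with rfl | hr
      exacts [⟨h1, hγ⟩, hR r hr]
    refine h.toIsSt0.conj_mem_XS T hr'.2 (fun s hs => (hR s hs.1).2) (fun s hs e => ?_)
      (hcl' m r hr) u hg
    have := T.neg_lt_N hr'.1 hr'.2
    have := (hR s hs.1).1
    omega
  induction M with
  | zero =>
    exact ⟨t, ht, z, XS_mono (S := R) (fun β hβ => by exact ⟨hβ, Nat.zero_le _⟩) hz, hy⟩
  | succ M ih =>
    obtain ⟨t', ht', z', hz', hy'⟩ := ih fun β hβ hlt => hsep β hβ (by omega)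
    by_cases hM : M ∈ R
    · have e : {β | β ∈ R ∧ M ≤ β} = {M} ∪ {β | β ∈ R ∧ M + 1 ≤ β} := by
        ext β
        simp only [Set.mem_ofPred_eq, Set.mem_union, Set.mem_singleton_iff]
        constructor
        · rintro ⟨a, b⟩
          rcases b.eq_or_lt with b | b
          exacts [Or.inl b.symm, Or.inr ⟨a, b⟩]
        · rintro (rfl | ⟨a, b⟩)
          exacts [⟨hM, le_rfl⟩, ⟨a, by omega⟩]
      have hnil : T.Nil {β | β ∈ R ∧ M ≤ β} :=
        T.nil_pos.mono (fun β hβ => (T.pos_iff β).2 (hR β hβ.1))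
          fun r hr s hs => hcl' M r (Set.mem_insert_of_mem _ hr.1) s hs
      rw [e] at hnil hz'
      obtain ⟨a, ha, b, hb, rfl⟩ := h.toIsSt0.exists_mul_of_mem_union hnil hz'
      obtain ⟨u, rfl⟩ := (h.toIsSt0.mem_XS_singleton (T.nroots_eq ▸ (hR M hM).2)).1 ha
      obtain ⟨r, hr, p1, p2, p3⟩ := hsep M hM (by omega)
      have hr' : r < 2 * T.N := T.nroots_eq ▸ hr
      have hk := hh_mem_Hs (x := x) hr hc0
      have e1 := h.hh_conj T hr' hγ hc0 t'
      have e2 := h.hh_conj T hr' (hR M hM).2 hc0 u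
      rw [p1, zpow_zero, one_mul] at e2
      have hb' := conj_mem_of_mem_normalizer
        (h.Hs_le_normalizer_XS T (S := {β | β ∈ R ∧ M + 1 ≤ β}) (fun s hs => (hR s hs.1).2) hk) hb
      refine ⟨(c ^ D.pairing r γ - 1) * t',
        mul_ne_zero (sub_ne_zero.2 (zpow_ne_one_of_le hc p2 p3)) ht', _,
        hnorm (M + 1) γ (Set.mem_insert _ _) t' _ (hnorm (M + 1) M (Set.mem_insert_of_mem _ hM) u _
          (Subgroup.mul_mem _ hb' (Subgroup.inv_mem _ hb))), ?_⟩
      have := X.mul_mem (conj_mem_of_mem_normalizer (hH hk) hy') (X.inv_mem hy')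
      convert this using 1
      have e3 : x γ (c ^ D.pairing r γ * t') = x γ ((c ^ D.pairing r γ - 1) * t') * x γ t' := by
        rw [h.add γ hγ']; congr 1; ring
      calc _ = x γ ((c ^ D.pairing r γ - 1) * t') * x γ t' * x M u *
            (hh D x r c * b * (hh D x r c)⁻¹) * (x γ t' * (x M u * b))⁻¹ := by group
        _ = (hh D x r c * x γ t' * (hh D x r c)⁻¹) * (hh D x r c * x M u * (hh D x r c)⁻¹) *
            (hh D x r c * b * (hh D x r c)⁻¹) * (x γ t' * (x M u * b))⁻¹ := by rw [e1, e2, e3]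
        _ = _ := by group
    · refine ⟨t', ht', z', XS_mono (S := {β | β ∈ R ∧ M ≤ β}) (fun β hβ => ?_) hz', hy'⟩
      refine ⟨hβ.1, ?_⟩
      rcases hβ.2.eq_or_lt with e | e
      · exact absurd (e ▸ hβ.1) hM
      · exact e

theorem isolate_all [Finite F] (hH : Hs D x ≤ Subgroup.normalizer (X : Set G)) {γ : ℕ}
    (h1 : T.N ≤ γ) (hγ : γ < 2 * T.N) {R : Set ℕ} (hR : ∀ r ∈ R, T.N ≤ r ∧ r < 2 * T.N)
    (hcl : ∀ r ∈ insert γ R, ∀ s ∈ R, ∀ k < 2 * T.N, ∀ i j : ℕ, 0 < i → 0 < j →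
      T.vec k = i • T.vec r + j • T.vec s → k ∈ R)
    {k : ℕ} {c : F} (hc0 : c ≠ 0) (hc : ∀ n : ℕ, 0 < n → n ≤ k → c ^ n ≠ 1)
    (hsep : ∀ β ∈ R, SepK D k γ β) {t : F} (ht : t ≠ 0) {z : G} (hz : z ∈ XS x R)
    (hy : x γ t * z ∈ X) (v : F) : x γ v ∈ X := by
  obtain ⟨t', ht', z', hz', hy'⟩ := isolate h T hH h1 hγ hR hcl hc0 hc (2 * T.N)
    (fun β hβ _ => hsep β hβ) ht hz hy
  have e : {β | β ∈ R ∧ 2 * T.N ≤ β} = ∅ :=
    Set.eq_empty_of_forall_notMem fun β hβ => absurd (hR β hβ.1).2 (not_lt.2 hβ.2)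
  rw [e, XS_empty, Subgroup.mem_bot] at hz'
  rw [hz', mul_one] at hy'
  exact root_all h T hH hγ ht' hy' v

omit h in
theorem closed_higher {γ : ℕ} (h1 : T.N ≤ γ) (hγ : γ < 2 * T.N) :
    ∀ r ∈ insert γ {δ | γ < δ ∧ δ < 2 * T.N}, ∀ s ∈ {δ | γ < δ ∧ δ < 2 * T.N}, ∀ k < 2 * T.N,
      ∀ i j : ℕ, 0 < i → 0 < j → T.vec k = i • T.vec r + j • T.vec s →
        k ∈ {δ | γ < δ ∧ δ < 2 * T.N} := by
  intro r hr s hs k hk i j hi hj e
  refine ⟨hs.1.trans ?_, hk⟩
  have hr' : T.N ≤ r ∧ r < 2 * T.N := by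
    rcases hr with rfl | hr
    exacts [⟨h1, hγ⟩, ⟨h1.trans hr.1.le, hr.2⟩]
  have p1 := T.val_pos hr'.1 hr'.2
  have p2 := T.val_pos (h1.trans hs.1.le) hs.2
  rw [← T.val_lt_iff hs.2 hk, e, map_add, map_nsmul, map_nsmul, nsmul_eq_mul, nsmul_eq_mul]
  have : (1 : ℤ) ≤ i := by exact_mod_cast hi
  have : (1 : ℤ) ≤ j := by exact_mod_cast hj
  nlinarith

theorem isolate_lead [Finite F] (hH : Hs D x ≤ Subgroup.normalizer (X : Set G)) {γ : ℕ}
    (h1 : T.N ≤ γ) (hγ : γ < 2 * T.N) {k : ℕ} {c : F} (hc0 : c ≠ 0)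
    (hc : ∀ n : ℕ, 0 < n → n ≤ k → c ^ n ≠ 1)
    (hsep : ∀ β < D.nroots, γ < β → SepK D k γ β) {t : F} (ht : t ≠ 0) {w : List (ℕ × F)}
    (hw : ∀ p ∈ w, γ < p.1 ∧ p.1 < 2 * T.N) (hy : x γ t * word x w ∈ X) (v : F) : x γ v ∈ X :=
  isolate_all h T hH h1 hγ (R := {δ | γ < δ ∧ δ < 2 * T.N})
    (fun _ hr => ⟨h1.trans hr.1.le, hr.2⟩) (closed_higher T h1 hγ) hc0 hc
    (fun β hβ => hsep β (T.nroots_eq ▸ hβ.2) hβ.1) ht
    (word_mem fun p hp => mem_XS (hw p hp) _) hy v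

omit h in
theorem closed_simple (i : Fin D.rank) :
    ∀ r ∈ insert (D.simple i) {r | D.IsPosRoot r ∧ r ≠ D.simple i},
      ∀ s ∈ {r | D.IsPosRoot r ∧ r ≠ D.simple i}, ∀ k < 2 * T.N,
      ∀ a b : ℕ, 0 < a → 0 < b → T.vec k = a • T.vec r + b • T.vec s →
        k ∈ {r | D.IsPosRoot r ∧ r ≠ D.simple i} := by
  intro r hr s hs k hk a b ha hb e
  have hr' : T.N ≤ r ∧ r < 2 * T.N := by
    rcases hr with rfl | hr
    exacts [⟨T.N_le_simple i, T.simple_lt i⟩, (T.pos_iff r).1 hr.1]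
  rw [← T.setUJ_singleton, T.setUJ_eq] at hs ⊢
  refine ⟨hk, ?_⟩
  have p1 := T.fJ_nonneg' {(i : ℕ)} hr'.1 hr'.2
  have p2 := hs.2
  rw [e, map_add, map_nsmul, map_nsmul, nsmul_eq_mul, nsmul_eq_mul]
  have : (1 : ℤ) ≤ a := by exact_mod_cast ha
  have : (1 : ℤ) ≤ b := by exact_mod_cast hb
  nlinarith

theorem commWord_mem_of_left (hU : Us D x ≤ Subgroup.normalizer (X : Set G)) {r s : ℕ}
    (hr : r < 2 * T.N) (h1 : T.N ≤ s) (hs : s < 2 * T.N) (e1 : s ≠ r) (e2 : s ≠ D.neg r) {t : F}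
    (ht : x r t ∈ X) (u : F) : word x (D.commWord F r s t u) ∈ X := by
  have e := h.comm r s (T.nroots_eq ▸ hr) (T.nroots_eq ▸ hs) e1 e2 t u
  have := X.mul_mem (conj_mem_of_mem_normalizer' (hU (T.mem_Us' h1 hs u)) (X.inv_mem ht)) ht
  convert this using 1
  calc _ = (x s u)⁻¹ * (x r t)⁻¹ * (x r t * x s u * word x (D.commWord F r s t u)) := by group
    _ = _ := by rw [← e]; group

/-- The inclusion `U_J ≤ X` from the table conditions. -/
theorem UJ_le_of_wcData [Finite F] {k : ℕ} (hD : WCData D k) {c : F} (hc0 : c ≠ 0)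
    (hc : ∀ n : ℕ, 0 < n → n ≤ k → c ^ n ≠ 1) {J : Set ℕ}
    (hP : Ps D x J ≤ Subgroup.normalizer (X : Set G))
    (hy : ∀ i : Fin D.rank, (i : ℕ) ∉ J → ∃ t : F, t ≠ 0 ∧
      ∃ z ∈ XS x {r | D.IsPosRoot r ∧ r ≠ D.simple i}, x (D.simple i) t * z ∈ X) :
    UJ D x J ≤ X := by
  have hH : Hs D x ≤ Subgroup.normalizer (X : Set G) := Hs_le_Bs.trans ((Bs_le_Ps J).trans hP)
  have hU : Us D x ≤ Subgroup.normalizer (X : Set G) := Us_le_Bs.trans ((Bs_le_Ps J).trans hP)
  have hN := T.nroots_eq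
  have hs : ∀ i : Fin D.rank, (i : ℕ) ∉ J → ∀ v, x (D.simple i) v ∈ X := by
    intro i hi
    obtain ⟨t, ht, z, hz, hyz⟩ := hy i hi
    refine isolate_all h T hH (T.N_le_simple i) (T.simple_lt i)
      (fun r hr => (T.pos_iff r).1 hr.1) (closed_simple T i) hc0 hc (fun β hβ => ?_) ht hz hyz
    have := (T.pos_iff β).1 hβ.1
    exact hD.1 i i.2 β (by omega) (by omega) hβ.2
  have key : ∀ β, T.N ≤ β → β < 2 * T.N → ¬ D.InRootSub J β → ∀ v, x β v ∈ X := by
    intro β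
    induction β using Nat.strong_induction_on with
    | _ β ih =>
    intro b1 b2 b3
    by_cases hsim : ∃ i < D.rank, β = D.simple i
    · obtain ⟨i, hi, rfl⟩ := hsim
      exact hs ⟨i, hi⟩ fun hJ => b3 ((T.inRootSub_simple (i := ⟨i, hi⟩)).2 hJ)
    obtain ⟨i, hi, hpos, hst⟩ := (hD.2 β (by omega) (by omega)).resolve_left hsim
    have hne : β ≠ D.simple i := fun e => hsim ⟨i, hi, e⟩
    have g1 : T.N ≤ D.reflectRoot i β := T.refl_pos ⟨i, hi⟩ β b1 b2 hne
    have g2 : D.reflectRoot i β < 2 * T.N := T.refl_lt ⟨i, hi⟩ β b2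
    have g3 : D.reflectRoot i β < β := T.refl_lt_self (i := ⟨i, hi⟩) b2 hpos
    by_cases hiJ : i ∈ J
    · intro v
      have g4 : ¬ D.InRootSub J (D.reflectRoot i β) := fun e => b3 (by
        have := T.inRootSub_refl e (i := ⟨i, hi⟩) hiJ
        rwa [T.refl_refl ⟨i, hi⟩ b2] at this)
      obtain ⟨η, hη, e, -⟩ := h.nconj_nn T ⟨i, hi⟩ g2
      have := conj_mem_of_mem_normalizer (hP (nn_mem_Ps (i := ⟨i, hi⟩) hiJ))
        (ih _ g3 g1 g2 g4 (η * v))
      rw [e, T.refl_refl ⟨i, hi⟩ b2, ← mul_assoc] at this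
      rcases hη with rfl | rfl
      · simpa using this
      · simpa using this
    · have s1 := T.N_le_simple ⟨i, hi⟩
      have s2 := T.simple_lt ⟨i, hi⟩
      have hw := commWord_mem_of_left h T hU s2 g1 g2 (T.refl_ne_simple ⟨i, hi⟩ b1 b2)
        (fun e => by have := T.neg_lt_N s1 s2; omega) (hs ⟨i, hi⟩ hiJ (-1)) 1
      have hspec := fun e (he : e ∈ D.commTerms (D.simple i) (D.reflectRoot i β)) =>
        T.commTerms_spec s2 g2 he
      unfold stepOK at hst
      rw [ChevalleyDatum.commWord,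
        ← List.takeWhile_append_dropWhile (p := fun e : ℕ × ℤ × ℕ × ℕ => decide (e.1 < β))
          (l := D.commTerms (D.simple i) (D.reflectRoot i β)), List.map_append, word_append] at hw
      have hpre : word x (((D.commTerms (D.simple i) (D.reflectRoot i β)).takeWhile
          fun e => decide (e.1 < β)).map fun c => (c.1, (c.2.1 : F) * (-(-1)) ^ c.2.2.1 *
            1 ^ c.2.2.2)) ∈ X := by
        refine word_mem fun p hp => ?_
        obtain ⟨e, he, rfl⟩ := List.mem_map.1 hp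
        have q1 : e.1 < β := by simpa using List.mem_takeWhile_imp he
        obtain ⟨q2, q3, -, q5⟩ := hspec e ((List.takeWhile_sublist _).subset he)
        have q6 : 0 < T.vec e.1 ⟨i, hi⟩ := by
          have q7 := T.vec_nonneg _ g1 g2 ⟨i, hi⟩
          rw [q5, Pi.add_apply, Pi.smul_apply, Pi.smul_apply, T.vec_simple ⟨i, hi⟩]
          simp only [sroot, Pi.single_eq_same, nsmul_eq_mul, mul_one]
          have : (0 : ℤ) < e.2.2.1 := by exact_mod_cast q3
          have : (0 : ℤ) ≤ e.2.2.2 * T.vec (D.reflectRoot i β) ⟨i, hi⟩ :=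
            mul_nonneg (Nat.cast_nonneg _) q7
          omega
        exact ih _ q1 (T.pos_of_coord q6) q2
          (fun e' => q6.ne' ((T.inRootSub_iff.1 e').2 ⟨i, hi⟩ hiJ)) _
      have hw' := (X.mul_mem_cancel_left hpre).1 hw
      have hsub := fun e (he : e ∈ (D.commTerms (D.simple i) (D.reflectRoot i β)).dropWhile
        fun e => decide (e.1 < β)) => hspec e ((List.dropWhile_sublist _).subset he)
      generalize (D.commTerms (D.simple i) (D.reflectRoot i β)).dropWhile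
        (fun e => decide (e.1 < β)) = L at hst hw' hsub
      cases L with
      | nil => simp at hst
      | cons e post =>
        simp only [Bool.and_eq_true, beq_iff_eq, Bool.or_eq_true, List.all_eq_true,
          decide_eq_true_eq, List.isEmpty_iff] at hst
        obtain ⟨⟨⟨q1, q2⟩, q3⟩, q4⟩ := hst
        rw [List.map_cons, word_cons, q1] at hw'
        have ht : (e.2.1 : F) * (-(-1)) ^ e.2.2.1 * 1 ^ e.2.2.2 ≠ 0 := by
          rcases q2 with q2 | q2 <;> simp [q2]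
        rcases q4 with rfl | q4
        · rw [List.map_nil, word_nil, mul_one] at hw'
          exact root_all h T hH b2 ht hw'
        · refine isolate_lead h T hH b1 b2 hc0 hc q4 ht (fun p hp => ?_) hw'
          obtain ⟨e', he', rfl⟩ := List.mem_map.1 hp
          exact ⟨q3 e' he', (hsub e' (List.mem_cons_of_mem _ he')).1⟩
  refine XS_le.2 fun r hr => ?_
  have := (T.pos_iff r).1 hr.1
  exact key r this.1 this.2 hr.2

omit h T in
theorem commTermsG2 : chevG2.commTerms 7 6 = [(8, -1, 1, 1), (9, 1, 2, 1), (10, 1, 3, 1),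
    (11, 1, 3, 2)] ∧ chevG2.commTerms 6 10 = [(11, 1, 1, 1)] ∧ chevG2.commTerms 6 11 = [] ∧
    chevG2.commTerms 7 10 = [] ∧ chevG2.commTerms 7 11 = [] := by decide +kernel

omit h T in
/-- The inclusion `U_J ≤ X` in type G₂. -/
theorem UJ_le_G2 [Finite F] {x : ℕ → F → G} (h : IsSt chevG2 x) {c : F} (hc0 : c ≠ 0)
    (hc : ∀ n : ℕ, 0 < n → n ≤ 2 → c ^ n ≠ 1) {J : Set ℕ}
    (hP : Ps chevG2 x J ≤ Subgroup.normalizer (X : Set G))
    (hy : ∀ i : Fin chevG2.rank, (i : ℕ) ∉ J → ∃ t : F, t ≠ 0 ∧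
      ∃ z ∈ XS x {r | chevG2.IsPosRoot r ∧ r ≠ chevG2.simple i},
        x (chevG2.simple i) t * z ∈ X) :
    UJ chevG2 x J ≤ X := by
  let T := rootTableG2
  have hN : T.N = 6 := rfl
  have hH : Hs chevG2 x ≤ Subgroup.normalizer (X : Set G) :=
    Hs_le_Bs.trans ((Bs_le_Ps J).trans hP)
  have hU : Us chevG2 x ≤ Subgroup.normalizer (X : Set G) :=
    Us_le_Bs.trans ((Bs_le_Ps J).trans hP)
  obtain ⟨c1, c2, c3, c4, c5⟩ := commTermsG2
  obtain ⟨s7, s6, s8, s9⟩ := sepG2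
  have hneg6 : chevG2.neg 6 = 5 := rfl
  have hneg7 : chevG2.neg 7 = 4 := rfl
  have hnr : chevG2.nroots = 12 := rfl
  -- a single commutator gives the four non-simple root subgroups
  have high : ∀ u : F, u ≠ 0 → word x (chevG2.commWord F 7 6 (-1) u) ∈ X →
      ∀ β, 8 ≤ β → β < 12 → ∀ v, x β v ∈ X := by
    intro u hu hw
    simp only [ChevalleyDatum.commWord, c1, List.map_cons, List.map_nil] at hw
    have h8 : ∀ v, x 8 v ∈ X := by
      rw [word_cons] at hw
      refine isolate_lead h T hH (by omega) (by omega) hc0 hc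
        (fun β h1 h2 => s8 β (by simp; omega)) (by simpa using hu) (fun p hp => ?_) hw
      simp only [List.mem_cons, List.not_mem_nil, or_false] at hp
      rcases hp with rfl | rfl | rfl <;> simp [hN]
    rw [word_cons, X.mul_mem_cancel_left (h8 _)] at hw
    have h9 : ∀ v, x 9 v ∈ X := by
      rw [word_cons] at hw
      refine isolate_lead h T hH (by omega) (by omega) hc0 hc
        (fun β h1 h2 => s9 β (by simp; omega)) (by simpa using hu) (fun p hp => ?_) hw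
      simp only [List.mem_cons, List.not_mem_nil, or_false] at hp
      rcases hp with rfl | rfl <;> simp [hN]
    rw [word_cons, X.mul_mem_cancel_left (h9 _), word_cons, word_cons, word_nil, mul_one] at hw
    simp only [Int.cast_one, neg_neg, one_pow, mul_one, one_mul, pow_one] at hw
    have h11 : ∀ v, x 11 v ∈ X := by
      have e1 := h.toIsSt0.conj_x (r := 6) (s := 10) (by omega) (by omega) (by omega) (by omega)
        (-1 : F) u
      have e2 := h.toIsSt0.conj_x (r := 6) (s := 11) (by omega) (by omega) (by omega) (by omega)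
        (-1 : F) (u ^ 2)
      simp only [ChevalleyDatum.commWord, c2, c3, List.map_cons, List.map_nil, word_cons,
        word_nil, mul_one, Int.cast_one, neg_neg, one_pow, one_mul, pow_one] at e1 e2
      have := conj_mem_of_mem_normalizer' (hU (T.mem_Us' (r := 6) (by omega) (by omega) (-1))) hw
      rw [conj_mul_mul, e1, e2, mul_assoc, h.toIsSt0.x_comm (by omega), ← mul_assoc,
        X.mul_mem_cancel_left hw] at this
      exact root_all h T hH (by omega) hu this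
    rw [X.mul_mem_cancel_right (h11 _)] at hw
    have h10 := root_all h T hH (by omega) hu hw
    intro β b1 b2
    interval_cases β
    exacts [h8, h9, h10, h11]
  have ha : (0 : ℕ) ∉ J → ∀ v, x 7 v ∈ X := by
    intro h0
    obtain ⟨t, ht, z, hz, hyz⟩ := hy (0 : Fin 2) h0
    refine isolate_all h T hH (T.N_le_simple (0 : Fin 2)) (T.simple_lt (0 : Fin 2))
      (fun r hr => (T.pos_iff r).1 hr.1) (closed_simple T (0 : Fin 2)) hc0 hc
      (fun β hβ => s7 β ?_) ht hz hyz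
    have := (T.pos_iff β).1 hβ.1
    have h7 : β ≠ 7 := hβ.2
    simp; omega
  have hb : (1 : ℕ) ∉ J → ∀ β, β = 6 ∨ 8 ≤ β → β < 12 → ∀ v, x β v ∈ X := by
    intro h1
    obtain ⟨t, ht, z, hz, hyz⟩ := hy (1 : Fin 2) h1
    obtain ⟨u, hu, z', hz', hy'⟩ := isolate h T hH (T.N_le_simple (1 : Fin 2))
      (T.simple_lt (1 : Fin 2)) (fun r hr => (T.pos_iff r).1 hr.1) (closed_simple T (1 : Fin 2))
      hc0 hc 10 (fun β hβ hlt => s6 β (by
        have := (T.pos_iff β).1 hβ.1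
        have h6 : β ≠ 6 := hβ.2
        simp; omega)) ht hz hyz
    change x 6 u * z' ∈ X at hy'
    have hz2 : z' ∈ XS x {β | 10 ≤ β ∧ β < 12} :=
      XS_mono (fun β hβ => by exact ⟨hβ.2, ((T.pos_iff β).1 hβ.1.1).2⟩) hz'
    have hzU : z' ∈ Us chevG2 x :=
      XS_le.2 (fun β hβ v => T.mem_Us' (by have := hβ.1; omega) hβ.2 v) hz2
    have hcomm : z' ∈ Subgroup.centralizer {x 7 (-1)} := by
      refine XS_le.2 (fun β hβ v => ?_) hz2
      rw [Subgroup.mem_centralizer_singleton_iff]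
      obtain ⟨b1, b2⟩ := hβ
      refine (h.toIsSt0.commute_x T (r := 7) (by omega) (by omega) (by omega) ?_ _ _).symm
      interval_cases β
      · simp [c4]
      · simp [c5]
    rw [Subgroup.mem_centralizer_singleton_iff] at hcomm
    have e := h.toIsSt0.conj_x (r := 7) (s := 6) (by omega) (by omega) (by omega) (by omega)
      (-1 : F) u
    have hw : word x (chevG2.commWord F 7 6 (-1) u) ∈ X := by
      have k1 := conj_mem_of_mem_normalizer'
        (hU (T.mem_Us' (r := 7) (by omega) (by omega) (-1))) hy'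
      have k2 := conj_mem_of_mem_normalizer (hU hzU) (X.mul_mem (X.inv_mem hy') k1)
      convert k2 using 1
      rw [conj_mul_mul, e, mul_assoc (x 7 (-1))⁻¹ z', hcomm]
      group
    have hh := high u hu hw
    intro β b1 b2
    rcases b1 with rfl | b1
    · rw [X.mul_mem_cancel_right (XS_le.2 (fun β hβ => hh β (by have := hβ.1; omega) hβ.2) hz2)]
        at hy'
      exact root_all h T hH (by omega) hu hy'
    · exact hh β b1 b2
  refine XS_le.2 fun r hr => ?_
  have hr1 := (T.pos_iff r).1 hr.1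
  by_cases h7 : r = 7
  · subst h7
    exact ha fun h0 => hr.2 ((T.inRootSub_simple (i := (0 : Fin 2))).2 h0)
  by_cases h1 : (1 : ℕ) ∈ J
  · have h0 : (0 : ℕ) ∉ J := fun h0 => hr.2 (T.inRootSub_iff.2 ⟨hr1.2, fun i hi => by
      fin_cases i
      exacts [absurd h0 hi, absurd h1 hi]⟩)
    have h6 : r ≠ 6 := fun e => hr.2 (e ▸ (T.inRootSub_simple (i := (1 : Fin 2))).2 h1)
    exact high 1 one_ne_zero (commWord_mem_of_left h T hU (by omega) (by omega) (by omega)
      (by omega) (by omega) (ha h0 _) 1) r (by omega) (by omega)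
  · exact hb h1 r (by omega) (by omega)

/-- A weakly closed subgroup of `U` lies in the unipotent radical of its normaliser. -/
theorem weaklyClosed_setup [Finite G] (hn : IsND x T) (htop : Gs D x = ⊤) (hX : X ≤ Us D x)
    (hwc : ∀ g : G, (∀ y ∈ X, g * y * g⁻¹ ∈ Us D x) → ∀ y ∈ X, g * y * g⁻¹ ∈ X) :
    ∃ J : Set ℕ, (∀ j ∈ J, j < D.rank) ∧ X ≤ UJ D x J ∧
      Ps D x J ≤ Subgroup.normalizer (X : Set G) ∧
      ∀ i : Fin D.rank, (i : ℕ) ∉ J → ∃ t : F, t ≠ 0 ∧
        ∃ z ∈ XS x {r | D.IsPosRoot r ∧ r ≠ D.simple i}, x (D.simple i) t * z ∈ X := by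
  have hnorm : ∀ g : G, (∀ y ∈ X, g * y * g⁻¹ ∈ Us D x) → g ∈ Subgroup.normalizer (X : Set G) :=
    fun g hg => Subgroup.mem_normalizer_fintype (hwc g hg)
  have hB : (stTits hn h htop).B ≤ Subgroup.normalizer (X : Set G) := fun b hb =>
    hnorm b fun y hy => conj_mem_of_mem_normalizer (h.Bs_le_normalizer_Us T hb) (hX hy)
  set J₀ := {i | ∃ y ∈ Subgroup.normalizer (X : Set G),
    (stTits hn h htop).wt y = (stTits hn h htop).s i}
  have hJ : Subgroup.normalizer (X : Set G) = (stTits hn h htop).par J₀ :=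
    (stTits hn h htop).eq_par hB
  refine ⟨Fin.val '' J₀, by rintro _ ⟨i, -, rfl⟩; exact i.2, fun u hu => ?_,
    by rw [← stTits_par' hn h htop, ← hJ], fun i hi => ?_⟩
  · obtain ⟨n, hN, ht⟩ := (stTits hn h htop).exists_isTop_N J₀
    have hnX : n ∈ Subgroup.normalizer (X : Set G) := hJ ▸ ht.1
    exact mem_UJ_of_isTop hn h htop hN ht (hX hu) (hX (conj_mem_of_mem_normalizer' hnX hu))
  · by_contra hcon
    push Not at hcon
    have hle : X ≤ UJ D x {(i : ℕ)} := by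
      intro y hy
      have e : {r | D.IsPosRoot r} = {D.simple i} ∪ {r | D.IsPosRoot r ∧ r ≠ D.simple i} := by
        ext r
        simp only [Set.mem_ofPred_eq, Set.mem_union, Set.mem_singleton_iff]
        constructor
        · intro hr
          by_cases e : r = D.simple i
          exacts [Or.inl e, Or.inr ⟨hr, e⟩]
        · rintro (rfl | hr)
          exacts [(T.pos_iff _).2 ⟨T.N_le_simple i, T.simple_lt i⟩, hr.1]
      have hyU := hX hy
      have hnil := T.nil_pos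
      unfold Us at hyU
      rw [e] at hyU hnil
      obtain ⟨a, ha, z, hz, rfl⟩ := h.toIsSt0.exists_mul_of_mem_union hnil hyU
      obtain ⟨t, rfl⟩ := (h.toIsSt0.mem_XS_singleton (T.simple_lt' i)).1 ha
      have ht : t = 0 := by
        by_contra ht
        exact hcon t ht z hz hy
      rw [ht, h.toIsSt0.x_zero (T.simple_lt' i), one_mul, UJ, T.setUJ_singleton]
      exact hz
    refine hi ⟨i, ⟨nn D x (D.simple i) 1, hnorm _ fun y hy => ?_, stTits_wt_nn hn h htop i⟩, rfl⟩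
    exact T.UJ_le_Us _ (conj_mem_of_mem_normalizer
      (h.Ps_le_normalizer T _ (nn_mem_Ps (Set.mem_singleton _))) (hle hy))

end Cfsg.Agent.St
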